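import Mathlib

/-!
Arithmetic for the recognition of `L₂(p²)` by its order and a character of degree `p²`.
-/

set_option autoImplicit false

namespace Cfsg.Lib.P2C

variable {p d : ℕ}

theorem a1 (hp : 2 ≤ p) (h : d ∣ p ^ 2 + 1) (e : d % p = 1) : d = 1 ∨ d = p ^ 2 + 1 := by
  obtain ⟨c, hc⟩ := h
  have h1 : c % p = 1 := by
    have := congrArg (· % p) hc
    simp only [Nat.mul_mod d, e, one_mul, Nat.mod_mod, pow_two, Nat.mul_add_mod] at this
    rw [← this, Nat.mod_eq_of_lt hp]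
  have h2 := Nat.div_add_mod d p
  have h3 := Nat.div_add_mod c p
  rw [e] at h2
  rw [h1] at h3
  rcases Nat.eq_zero_or_pos (d / p) with h4 | h4
  · rw [h4] at h2; omega
  rcases Nat.eq_zero_or_pos (c / p) with h5 | h5
  · rw [h5] at h3
    rw [show c = 1 by omega, mul_one] at hc
    exact .inr hc.symm
  have h6 : p + 1 ≤ d := by nlinarith
  have h7 : p + 1 ≤ c := by nlinarith
  nlinarith [Nat.mul_le_mul h6 h7]

theorem a2 (hp : 2 ≤ p) (h : d ∣ p ^ 2 - 1) (e : d % p = 1) : d = 1 ∨ d = p + 1 := by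
  obtain ⟨c, hc⟩ := h
  have h0 : 4 ≤ p ^ 2 := by nlinarith
  have h2 := Nat.div_add_mod d p
  rw [e] at h2
  generalize d / p = a at h2
  subst h2
  have h1 : p * p = p * (a * c) + (c + 1) := by
    rw [← pow_two, show p ^ 2 = (p * a + 1) * c + 1 by omega]; ring
  obtain ⟨b, hb⟩ : p ∣ c + 1 := (Nat.dvd_add_right (dvd_mul_right p _)).1 (h1 ▸ dvd_mul_right p p)
  rw [hb, ← mul_add] at h1
  have h3 := Nat.eq_of_mul_eq_mul_left (by omega) h1
  rcases (show a = 0 ∨ a = 1 ∨ 2 ≤ a by omega) with rfl | rfl | ha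
  · simp
  · simp
  have h4 : 0 < b := Nat.pos_of_ne_zero fun e => by rw [e] at hb; omega
  have h5 : p ≤ c + 1 := by nlinarith
  have h6 : 2 * c ≤ a * c := by gcongr
  have h7 : p = 2 := by omega
  subst h7
  have : c = 1 := by omega
  subst this
  omega

theorem sq4 (p : ℕ) : p ^ 4 - 1 = (p ^ 2 + 1) * (p ^ 2 - 1) := by
  rw [← Nat.sq_sub_sq, ← pow_mul, one_pow]

theorem sq_mod4 (ho : Odd p) : ∃ k, p ^ 2 = 4 * k + 1 := by
  obtain ⟨k, rfl⟩ := ho
  exact ⟨k ^ 2 + k, by ring⟩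

/-- Prime powers congruent to `1` dividing `(p⁴ - 1) / 2`. -/
theorem a4 {r a : ℕ} (hp : 2 ≤ p) (ho : Odd p) (hr : r.Prime) (ha : a ≠ 0)
    (h : 2 * r ^ a ∣ p ^ 4 - 1) (e : r ^ a % p = 1) : r = 2 ∧ r ^ a = p + 1 := by
  obtain ⟨k, hk⟩ := sq_mod4 ho
  have h1 : r ^ a ≠ 1 := (Nat.one_lt_pow ha hr.one_lt).ne'
  rw [sq4] at h
  rcases hr.eq_two_or_odd' with rfl | h2
  · refine ⟨rfl, (a2 hp ?_ e).resolve_left h1⟩
    rw [show p ^ 2 + 1 = 2 * (2 * k + 1) by omega, mul_assoc] at h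
    exact (Nat.Coprime.pow_left a (by simp)).dvd_of_dvd_mul_left (Nat.dvd_of_mul_dvd_mul_left two_pos h)
  have h3 : Odd (r ^ a) := h2.pow
  have h4 := ho.add_one
  have h5 := (ho.pow (n := 2)).add_one
  replace h := (dvd_mul_left _ 2).trans h
  exfalso
  by_cases h6 : r ∣ p ^ 2 + 1
  · have h7 : ¬ r ∣ p ^ 2 - 1 := fun h7 => by
      have := Nat.le_of_dvd two_pos ((show p ^ 2 + 1 - (p ^ 2 - 1) = 2 by omega) ▸ Nat.dvd_sub h6 h7)
      obtain rfl : r = 2 := le_antisymm this hr.two_le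
      exact absurd h2 (by decide)
    rcases a1 hp ((((Nat.Prime.coprime_iff_not_dvd hr).2 h7).pow_left a).dvd_of_dvd_mul_right h) e
      with h8 | h8
    · exact h1 h8
    · exact Nat.not_even_iff_odd.2 h3 (h8 ▸ h5)
  rcases a2 hp ((((Nat.Prime.coprime_iff_not_dvd hr).2 h6).pow_left a).dvd_of_dvd_mul_left h) e
    with h8 | h8
  · exact h1 h8
  · exact Nat.not_even_iff_odd.2 h3 (h8 ▸ h4)

theorem b1 {M k a c t : ℕ} (h1 : M ∣ 174) (h2 : M = k + a * c + 17 * t) (h3 : 240 ≤ c) (h4 : 0 < t)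
    (h5 : k ∣ 16) (h6 : k ∣ M) : False := by
  have h7 := Nat.le_of_dvd (by norm_num) h1
  have h8 := Nat.le_of_dvd (by norm_num) h5
  obtain rfl : a = 0 := by
    by_contra e
    have : 1 * 240 ≤ a * c := Nat.mul_le_mul (by omega) h3
    omega
  have : ∀ M ∈ Nat.divisors 174, ∀ k ∈ Nat.divisors 16, k ∣ M → M % 17 = k → M ≤ k := by
    decide +kernel
  have := this M (Nat.mem_divisors.2 ⟨h1, by norm_num⟩) k (Nat.mem_divisors.2 ⟨h5, by norm_num⟩) h6
    (by omega)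
  omega

theorem b2 {M k a c c' t : ℕ} (hp : p.Prime) (h7 : 7 ≤ p) (h1 : M * c' ∣ p ^ 2 + 1)
    (hc : 2 * c = c' * (p ^ 2 - 1)) (h2 : M = k + a * c + p * t) (h4 : 0 < t) (h5 : k ∣ p - 1)
    (h6 : k ∣ M) : M = p ^ 2 + 1 ∧ c' = 1 ∧ k = 1 ∧ a = 0 := by
  obtain ⟨l, hl⟩ := sq_mod4 (hp.odd_of_ne_two (by omega))
  have k1 := Nat.le_of_dvd (by omega) h5
  have k0 := Nat.pos_of_dvd_of_pos h5 (by omega)
  have k2 := Nat.le_of_dvd (by omega) h1
  have c0 : 0 < c' := Nat.pos_of_mul_pos_left (Nat.pos_of_dvd_of_pos h1 (by omega))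
  have k3 : p ≤ p * t := Nat.le_mul_of_pos_right _ h4
  have k4 : 7 * 7 ≤ p ^ 2 := by nlinarith
  rcases Nat.eq_zero_or_pos a with rfl | ha
  · obtain ⟨m, rfl⟩ := h6
    have m1 : 1 < m := by
      by_contra e
      have : k * m ≤ k * 1 := Nat.mul_le_mul_left _ (by omega)
      omega
    have e1 : p ∣ m - 1 := (hp.dvd_mul.1 ⟨t, by rw [Nat.mul_sub]; omega⟩).resolve_left
      fun e => absurd (Nat.le_of_dvd k0 e) (by omega)
    have e2 : m = p ^ 2 + 1 := (a1 hp.two_le ((Dvd.intro_left k rfl).trans ((dvd_mul_right _ _).trans h1))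
      (by
        obtain ⟨s, hs⟩ := e1
        rw [show m = p * s + 1 by omega, Nat.mul_add_mod, Nat.mod_eq_of_lt hp.one_lt])).resolve_left m1.ne'
    have e3 : k * c' ≤ 1 := by
      rw [← e2] at k2
      exact Nat.le_of_mul_le_mul_left (show m * (k * c') ≤ m * 1 by linarith) (by omega)
    have e4 : k = 1 := by nlinarith
    have e5 : c' = 1 := by nlinarith
    rw [e4, e2, one_mul]
    exact ⟨rfl, e5, rfl, rfl⟩
  exfalso
  have e0 : c = c' * (2 * l) := by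
    rw [hl, Nat.add_sub_cancel] at hc
    linarith
  have e1 : 1 * (1 * (2 * l)) ≤ a * c := e0 ▸ Nat.mul_le_mul ha (Nat.mul_le_mul_right _ c0)
  obtain ⟨s, hs⟩ := h1
  have e2 : c' * s = 1 := by
    rcases (show c' * s = 0 ∨ c' * s = 1 ∨ 2 ≤ c' * s by omega) with e | e | e
    · rw [mul_assoc, e] at hs; omega
    · exact e
    · have : M * 2 ≤ M * (c' * s) := Nat.mul_le_mul_left _ e
      rw [mul_assoc] at hs; omega
  rw [mul_assoc, e2, mul_one] at hs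
  rw [Nat.eq_one_of_mul_eq_one_right e2, one_mul] at e0
  subst e0
  rcases (show a = 1 ∨ 2 ≤ a by omega) with rfl | ha
  · have e3 : p ∣ 2 * k + p - 3 := by
      have : p * (p + 1) = 2 * k + p - 3 + p * (2 * t) := by
        rw [show p * (2 * t) = 2 * (p * t) by ring, mul_add, ← pow_two]; omega
      exact (Nat.dvd_add_left (dvd_mul_right p _)).1 (this ▸ dvd_mul_right p _)
    obtain ⟨u, hu⟩ := e3
    have e4 : p % 2 = 1 := Nat.odd_iff.1 (hp.odd_of_ne_two (by omega))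
    rcases (show u = 0 ∨ u = 1 ∨ u = 2 ∨ 3 ≤ u by omega) with rfl | rfl | rfl | e
    · omega
    · omega
    · have : k ∣ 4 := (show 2 * k - (p - 1) = 4 by omega) ▸ Nat.dvd_sub (dvd_mul_left k 2) h5
      have := Nat.le_of_dvd (by norm_num) this
      omega
    · have : p * 3 ≤ p * u := Nat.mul_le_mul_left _ e
      omega
  · have : 2 * (2 * l) ≤ a * (2 * l) := Nat.mul_le_mul_right _ ha
    omega

theorem n4 {n : ℕ} (h8 : 8 ∣ p + 1) (h : 2 * n ∣ p ^ 2 * (p ^ 4 - 1)) : ¬ 4 * (p + 1) ∣ n := fun e => by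
  obtain ⟨k, hk⟩ := h8
  obtain ⟨j, rfl⟩ : ∃ j, p = 8 * j + 7 := ⟨k - 1, by omega⟩
  have h1 := (mul_dvd_mul_left 2 e).trans h
  rw [sq4, show (8 * j + 7) ^ 2 - 1 = (8 * j + 7 + 1) * (8 * j + 6) from
    Nat.sub_eq_of_eq_add (by ring), show 2 * (4 * (8 * j + 7 + 1)) = (8 * j + 7 + 1) * 8 by ring,
    show (8 * j + 7) ^ 2 * (((8 * j + 7) ^ 2 + 1) * ((8 * j + 7 + 1) * (8 * j + 6))) =
      (8 * j + 7 + 1) * (8 * (4096 * j ^ 5 + 17408 * j ^ 4 + 29632 * j ^ 3 + 25248 * j ^ 2 +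
        10766 * j + 1837) + 4) by ring] at h1
  have := Nat.dvd_of_mul_dvd_mul_left (by omega) h1
  omega

end Cfsg.Lib.P2C
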