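import Cfsg.Agent.Lib.P2C.Ar
import Cfsg.Agent.Lib.GW.BSW1
import Cfsg.Agent.Lib.Comp.Bender

/-!
Groups with a self-centralizing Sylow subgroup of order `p²` and order dividing `|L₂(p²)|`:
invariant `p'`-subgroups and the class equation of an element of order `p`.
-/

set_option autoImplicit false

namespace Cfsg.Lib.P2C

open Subgroup Cfsg.Lib.BG Cfsg.Lib.Small Cfsg.Lib.GW Cfsg.Lib.Comp
open Cfsg.Lib.Transfer hiding card_mul_relIndex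

variable {G : Type*} [Group G] [Finite G] {p : ℕ} [hp : Fact p.Prime] {H K N P Q Y : Subgroup G}
  {g x y z : G}

/-- The standing hypothesis. -/
structure St (p : ℕ) (P : Subgroup G) : Prop where
  p7 : 7 ≤ p
  syl : Syl p P ⊤
  card : Nat.card P = p ^ 2
  cen : 𝐂(P) ≤ P
  core : 𝐎({p}, (⊤ : Subgroup G)) = ⊥
  dvd : 2 * Nat.card G ∣ p ^ 2 * (p ^ 4 - 1)

theorem pmul (hP : IsPGroup p P) (h : ¬ P ≤ H) : p * Nat.card ↥(P ⊓ H) ∣ Nat.card P := by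
  rw [← card_mul_relIndex (inf_le_left : P ⊓ H ≤ P), mul_comm]
  obtain ⟨k, hk⟩ := hP.index ((P ⊓ H).subgroupOf P)
  refine mul_dvd_mul_left _ (hk ▸ dvd_pow_self _ fun e => h ?_ : p ∣ ((P ⊓ H).subgroupOf P).index)
  rw [e, pow_zero] at hk
  exact (relIndex_eq_one.1 hk).trans inf_le_right

theorem pg_of_ord (ox : orderOf x = p) : IsPGroup p (zpowers x) :=
  IsPGroup.of_card (n := 1) (by rw [Nat.card_zpowers, ox, pow_one])

theorem ne_one_of_ord (ox : orderOf x = p) : x ≠ 1 := fun e =>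
  hp.out.one_lt.ne (by rw [← ox, e, orderOf_one])

theorem prime_zp (ox : orderOf x = p) : (Nat.card (zpowers x)).Prime := by
  rw [Nat.card_zpowers, ox]; exact hp.out

theorem isConj_conj (h : IsConj x y) (g : G) : IsConj x (g * y * g⁻¹) :=
  h.trans (isConj_iff.2 ⟨g, rfl⟩)

theorem conj_mem_iff (hg : g ∈ 𝐍(H)) : g * y * g⁻¹ ∈ H ↔ y ∈ H := (mem_normalizer_iff.1 hg y).symm

namespace St
variable (h : St p P)
include h

theorem pg : IsPGroup p P := h.syl.pgroup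

theorem ab : P ≤ 𝐂(P) := abelian_cent (IsPGroup.isMulCommutative_of_card_eq_prime_sq h.card)

theorem odd : Odd p := hp.out.odd_of_ne_two (by have := h.p7; omega)

theorem conj (g : G) : St p (g ⋆ P) :=
  ⟨h.p7, h.syl.conj_top g, (card_conj g P).trans h.card,
    (conj_centralizer g P).ge.trans (conj_mono g h.cen), h.core, h.dvd⟩

theorem of_syl (hQ : Syl p Q ⊤) : St p Q := by
  obtain ⟨g, -, rfl⟩ := h.syl.exists_conj_eq hQ
  exact h.conj g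

theorem of_card (hQ : Nat.card Q = p ^ 2) : St p Q :=
  h.of_syl (h.syl.of_card_le' (IsPGroup.of_card hQ) le_top (h.card.trans hQ.symm).le)

theorem idx : 2 * P.index ∣ p ^ 4 - 1 := by
  have := h.dvd
  rw [← P.card_mul_index, h.card, mul_left_comm] at this
  exact Nat.dvd_of_mul_dvd_mul_left (pow_pos hp.out.pos 2) this

theorem nml (hN : IsPGroup p N) (hn : Nml N ⊤) : N = ⊥ := eq_bot_mono h.core (pcore_max_p hN hn)

theorem le_cent1 (hx : x ∈ P) : P ≤ 𝐂[x] := h.ab.trans (cent_le_cent1 hx)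

theorem mem_of_norm (ox : orderOf x = p) (hx : x ∈ 𝐍(P)) : x ∈ P :=
  zpowers_le.1 (h.syl.ge_of_norm_p' le_top (pg_of_ord ox) (zpowers_le.2 hx))

theorem fpf (hY : PiGrp {p}ᶜ Y) (hy : y ∈ Y) (hc : P ≤ 𝐂[y]) : y = 1 :=
  mem_bot.1 ((disjoint_of_coprime (hY.coprime_pgroup h.pg)).le ⟨hy, h.cen (le_cent1_iff.1 hc)⟩)

theorem modp (hn : P ≤ 𝐍(Y)) (hY : PiGrp {p}ᶜ Y) : Nat.card Y % p = 1 := by
  obtain ⟨k, hk⟩ : p ∣ ((Y : Set G) \ {1}).ncard := dvd_ncard_conj (T := P)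
    (fun g hg y hy => ⟨conj_mem_of_norm (hn hg) hy.1, fun e => hy.2 (conj_eq_one_iff.1 e)⟩)
    fun y hy => pmul h.pg fun e => hy.2 (h.fpf hY hy.1 e)
  rw [show Nat.card Y = (Y : Set G).ncard from rfl, ← Set.ncard_sdiff_singleton_add_one (one_mem Y),
    hk, Nat.mul_add_mod, Nat.mod_eq_of_lt hp.out.one_lt]

theorem dvd' (hY : PiGrp {p}ᶜ Y) : 2 * Nat.card Y ∣ p ^ 4 - 1 :=
  (Nat.Coprime.pow_right 2 (Nat.Coprime.mul_left (by simpa using h.odd) hY.coprime_p)).dvd_of_dvd_mul_left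
    ((mul_dvd_mul_left 2 (card_subgroup_dvd_card Y)).trans h.dvd)

theorem lemB (hn : P ≤ 𝐍(Y)) (hY : PiGrp {p}ᶜ Y) (h0 : Y ≠ ⊥) :
    Nat.card Y = p + 1 ∧ IsPGroup 2 Y := by
  have k : ∀ r : ℕ, r.Prime → r ∣ Nat.card Y → r = 2 ∧ ∃ R, Syl r R Y ∧ Nat.card R = p + 1 := by
    intro r hr hd
    have := Fact.mk hr
    obtain ⟨R, hR, hP⟩ := Syl.exists_inv (p := r) hn (hY.coprime_pgroup h.pg).symm
      (.inl (pgroup_sol h.pg))
    obtain ⟨a, ha⟩ := IsPGroup.iff_card.1 hR.pgroup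
    have := a4 hp.out.two_le h.odd hr (a := a) (fun e => card_ne_one (hR.ne_bot' hd) (by rw [ha, e, pow_zero]))
      (ha ▸ h.dvd' (hY.of_le hR.le)) (ha ▸ h.modp hP (hY.of_le hR.le))
    exact ⟨this.1, R, hR, ha.trans this.2⟩
  have h2 : PiGrp {2} Y := fun r hr hd => (k r hr hd).1
  obtain ⟨r, hr, hd⟩ := Nat.exists_prime_and_dvd (card_ne_one h0)
  obtain ⟨rfl, R, hR, e⟩ := k r hr hd
  exact ⟨hR.eq_self h2 ▸ e, h2.pgroup⟩

theorem eq_of_le (hn : P ≤ 𝐍(Y)) (hY : PiGrp {p}ᶜ Y) (hK : P ≤ 𝐍(K)) (hle : K ≤ Y) (h0 : K ≠ ⊥) :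
    K = Y := eq_of_le_of_card_le hle ((h.lemB hn hY (ne_bot_mono h0 hle)).1.trans
  (h.lemB hK (hY.of_le hle) h0).1.symm).le

theorem not_comm (ox : orderOf x = p) : ∃ y, IsConj x y ∧ y ∉ 𝐂[x] := by
  by_contra! e
  refine ne_one_of_ord ox (mem_bot.1 (h.core.le (sn_le_pcore (sn_of_ncl le_top fun g _ => ?_)
    (PiGrp.p_iff.2 (pg_of_ord ox)) (mem_zpowers x))))
  rw [conj_zpowers]
  exact zpowers_le.2 (cent_le_norm _ (cent_zpowers x ▸ e _ (isConj_iff.2 ⟨g, rfl⟩)))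

theorem cc (ox : orderOf x = p) (oy : orderOf y = p) (hy : y ∈ 𝐂[x]) (hn : y ∉ zpowers x) :
    St p (𝐂[x] ⊓ 𝐂[y]) := by
  have c : zpowers y ≤ 𝐂(zpowers x) := cent_zpowers x ▸ zpowers_le.2 hy
  have k := h.of_card (Q := zpowers x ⊔ zpowers y) (by
    rw [← (SD.of_norm (norm_of_cent c) (by
      rw [inf_comm]; exact inf_eq_bot_of_prime (prime_zp oy) (mt zpowers_le.1 hn))).card,
      Nat.card_zpowers, Nat.card_zpowers, ox, oy, pow_two])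
  rwa [← cent_zpowers, ← cent_zpowers, ← cent_sup, le_antisymm k.cen k.ab]

theorem card_cent (hx : x ∈ P) : Nat.card 𝐂[x] = p ^ 2 * P.relIndex 𝐂[x] := by
  rw [← card_mul_relIndex (h.le_cent1 hx), h.card]

theorem idx_mul (hx : x ∈ P) : 2 * (P.relIndex 𝐂[x] * 𝐂[x].index) ∣ p ^ 4 - 1 := by
  rw [relIndex_mul_index (h.le_cent1 hx)]; exact h.idx

/-- The class equation. -/
theorem eqn (hx : x ∈ P) (ox : orderOf x = p) :
    ∃ k a t, 𝐂[x].index = k + a * P.relIndex 𝐂[x] + p * t ∧ 0 < t ∧ k ∣ p - 1 ∧ k ∣ 𝐂[x].index ∧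
      (k = 1 → a = 0 → ∀ y, IsConj x y → y ∈ 𝐂[x] → y = x) := by
  have xc : zpowers x ≤ 𝐂[x] := zpowers_le.2 (self_mem_cent1 x)
  have nc : 𝐂[x] ≤ 𝐍(zpowers x) := cent_zpowers x ▸ cent_le_norm _
  have e1 := Set.ncard_inter_add_ncard_sdiff_eq_ncard {y | IsConj x y} 𝐂[x]
  have e2 := Set.ncard_inter_add_ncard_sdiff_eq_ncard ({y | IsConj x y} ∩ 𝐂[x]) (zpowers x)
  obtain ⟨a, ha⟩ : P.relIndex 𝐂[x] ∣ (({y | IsConj x y} ∩ 𝐂[x]) \ zpowers x).ncard :=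
    dvd_ncard_conj (T := 𝐂[x]) (fun g hg y hy => ⟨⟨isConj_conj hy.1.1 g, mul_mem (mul_mem hg hy.1.2)
      (inv_mem hg)⟩, mt (conj_mem_iff (nc hg)).1 hy.2⟩) fun y hy => by
      rw [(h.cc ox (orderOf_eq_of_isConj hy.1.1 ▸ ox) hy.1.2 hy.2).card, h.card_cent hx, mul_comm]
  obtain ⟨t, ht⟩ : p ∣ ({y | IsConj x y} \ 𝐂[x]).ncard := dvd_ncard_conj (T := zpowers x)
    (fun g hg y hy => ⟨isConj_conj hy.1 g, mt (conj_mem_iff (le_norm _ (xc hg))).1 hy.2⟩)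
    fun y hy => pmul (pg_of_ord ox) fun e => hy.2 (mem_cent1_symm (e (mem_zpowers x)))
  have e3 : {y | IsConj x y} ∩ 𝐂[x] ∩ zpowers x = {s | ∃ c ∈ 𝐍(zpowers x), c * x * c⁻¹ = s} := by
    ext y
    refine ⟨fun hy => ?_, fun ⟨c, hc, e⟩ => e ▸ ⟨⟨isConj_iff.2 ⟨c, rfl⟩,
      xc (conj_mem_of_norm hc (mem_zpowers x))⟩, conj_mem_of_norm hc (mem_zpowers x)⟩⟩
    obtain ⟨c, rfl⟩ := isConj_iff.1 hy.1.1
    refine ⟨c, norm_of_conj_eq ?_, rfl⟩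
    rw [conj_zpowers]
    exact zpowers_eq_of_prime (prime_zp ox) hy.2 (mt conj_eq_one_iff.1 (ne_one_of_ord ox))
  have e4 : ({y | IsConj x y} ∩ 𝐂[x] ∩ zpowers x).ncard = 𝐂[x].relIndex 𝐍(zpowers x) := by
    have := ncard_conj_mul 𝐍(zpowers x) x
    rw [inf_eq_right.2 nc, ← card_mul_relIndex nc, mul_comm] at this
    rw [e3, Nat.eq_of_mul_eq_mul_left Nat.card_pos this]
  rw [ncard_isConj_eq_index, ← e2, ha, ht, mul_comm _ a] at e1
  refine ⟨_, a, t, e1.symm, Nat.pos_of_ne_zero fun e => ?_, e4 ▸ ?_,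
    e4 ▸ Dvd.intro _ (relIndex_mul_index nc), fun k1 a0 y hy hc => ?_⟩
  · obtain ⟨y, hy, hn⟩ := h.not_comm ox
    rw [e, mul_zero, Set.ncard_eq_zero] at ht
    exact ht.le (show y ∈ _ from ⟨hy, hn⟩)
  · have := relIndex_centralizer_dvd_card_mulAut (zpowers x)
    rwa [cent_zpowers, IsCyclic.card_mulAut, Nat.card_zpowers, ox, Nat.totient_prime hp.out] at this
  rw [a0, mul_zero, Set.ncard_eq_zero] at ha
  obtain ⟨w, hw⟩ := Set.ncard_eq_one.1 k1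
  have hy' : y ∈ zpowers x := by_contra fun e => ha.le (show y ∈ _ from ⟨⟨hy, hc⟩, e⟩)
  exact (hw.le ⟨⟨hy, hc⟩, hy'⟩).trans (hw.le ⟨⟨IsConj.refl x, self_mem_cent1 x⟩, mem_zpowers x⟩).symm

theorem small (hx : x ∈ P) (ox : orderOf x = p) (hM : 𝐂[x].index < p ^ 2) :
    ∃ y ∈ P, orderOf y = p ∧ ¬ 𝐂[y] ≤ 𝐍(P) ∧ P.relIndex 𝐂[y] ≤ 𝐂[x].index := by
  obtain ⟨z, hz, h0⟩ : ∃ z ∈ {y | IsConj x y} \ P, P ⊓ 𝐂[z] ≠ ⊥ := by
    by_contra! e
    have e1 : p ^ 2 ∣ ({y | IsConj x y} \ P).ncard := dvd_ncard_conj (T := P)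
      (fun g hg y hy => ⟨isConj_conj hy.1 g, mt (conj_mem_iff (le_norm _ hg)).1 hy.2⟩)
      fun y hy => by rw [e y hy, card_bot, mul_one, h.card]
    obtain ⟨y, hy, hn⟩ := h.not_comm ox
    have := Nat.le_of_dvd ((Set.ncard_pos).2 ⟨y, by exact ⟨hy, fun e => hn (h.le_cent1 hx e)⟩⟩) e1
    have := Set.ncard_le_ncard (Set.sdiff_subset (s := {y | IsConj x y}) (t := P))
    rw [ncard_isConj_eq_index] at this
    omega
  obtain ⟨y, hy, oy⟩ := exists_mem_orderOf_eq_prime hp.out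
    (pgroup_dvd_card (pgroup_of_le h.pg inf_le_left) h0)
  have oz : orderOf z = p := orderOf_eq_of_isConj hz.1 ▸ ox
  have hc := mem_cent1_symm hy.2
  refine ⟨y, hy.1, oy, fun e => hz.2 (h.mem_of_norm oz (e hc)), ?_⟩
  have := ncard_conj_mul 𝐂[y] z
  rw [(h.cc oy oz hc fun e => hz.2 (zpowers_le.2 hy.1 e)).card, h.card_cent hy.1, mul_comm] at this
  rw [← Nat.eq_of_mul_eq_mul_left (pow_pos hp.out.pos 2) this, ← ncard_isConj_eq_index]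
  exact Set.ncard_le_ncard fun w ⟨c, _, e⟩ => e ▸ isConj_conj hz.1 c

theorem exists_min (hn : ∃ x ∈ P, orderOf x = p ∧ ¬ 𝐂[x] ≤ 𝐍(P)) :
    ∃ x ∈ P, orderOf x = p ∧ ¬ 𝐂[x] ≤ 𝐍(P) ∧ P.relIndex 𝐂[x] < p ^ 2 := by
  obtain ⟨x, hx, ox, hn⟩ := hn
  by_contra! e
  have h1 := e x hx ox hn
  have h2 : 1 < p ^ 4 := Nat.one_lt_pow (by norm_num) hp.out.one_lt
  have h3 := Nat.le_of_dvd (by omega) (h.idx_mul hx)
  have h4 : 𝐂[x].index < p ^ 2 := by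
    by_contra! k
    have := Nat.mul_le_mul h1 k
    rw [← pow_add, show 2 + 2 = 4 from rfl] at this
    omega
  obtain ⟨y, hy, oy, k, h5⟩ := h.small hx ox h4
  have := e y hy oy k
  omega

end St

end Cfsg.Lib.P2C
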